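import Cfsg.Agent.H410.BR.OmDefs
import Mathlib.GroupTheory.Nilpotent
import Mathlib.GroupTheory.Sylow

/-!
# `p`-subgroups of `POmega F Q` normalizing an `r`-subgroup (helper674)

* `exists_lift` : `D ≤ G` a `p`-group; a Sylow `p`-subgroup of `G / Z(G)` normalizing a nontrivial `r`-subgroup gives
  a nontrivial `r`-subgroup of `G` normalized by `D`;
* `exists_inv` : `R ≠ 1` an `r`-subgroup of `Omega F Q` (`r` the characteristic) normalized by `D`: then `D` fixes a
  nonzero vector or a nonzero totally singular subspace;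
* `noD` : the combination.
-/

set_option autoImplicit false
set_option linter.unusedSectionVars false

namespace Cfsg.Agent.H674.BD.NoD

open Module QuadraticMap Cfsg Cfsg.Agent.H2.Pol Cfsg.Agent.H410.BR
open Cfsg.Agent.LieClassical Cfsg.Agent.LieClassical.OrthCore Cfsg.Agent.LieClassical.OrthTrans
  Cfsg.Agent.LieClassical.OrthFinite

section lift

variable {G : Type*} [Group G] [Finite G] {p r : ℕ} [hp : Fact p.Prime] [hr : Fact r.Prime]

/-- lifting an `r`-subgroup of `G / Z(G)` -/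
theorem exists_lift_aux (V : Subgroup (G ⧸ Subgroup.center G)) (hV : IsPGroup r V) (hV1 : V ≠ ⊥) :
    ∃ R : Subgroup G, IsPGroup r R ∧ R ≠ ⊥ ∧ ∀ x : G, x ∈ R ↔ x ∈ V.comap (QuotientGroup.mk' (Subgroup.center G)) ∧
      ∃ k : ℕ, x ^ (r ^ k) = 1 := by
  set π := QuotientGroup.mk' (Subgroup.center G) with hπ
  set V₁ := V.comap π with hV₁
  -- `V₁` is nilpotent
  have hnil : Group.IsNilpotent V₁ := by
    have hVn : Group.IsNilpotent V := hV.isNilpotent
    let f : V₁ →* V := (π.comp V₁.subtype).codRestrict V (fun x => x.2)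
    refine Subgroup.isNilpotent_of_ker_le_center f ?_
    intro x hx
    have h1 : π x.1 = 1 := congrArg Subtype.val (MonoidHom.mem_ker.1 hx)
    have h2 : x.1 ∈ Subgroup.center G := by
      rwa [hπ, QuotientGroup.mk'_apply, QuotientGroup.eq_one_iff] at h1
    rw [Subgroup.mem_center_iff]
    intro y
    exact Subtype.ext (Subgroup.mem_center_iff.1 h2 y.1)
  obtain ⟨P⟩ : Nonempty (Sylow r V₁) := inferInstance
  have hPn : (P : Subgroup V₁).Normal :=
    (Group.isNilpotent_of_finite_tfae (G := V₁).out 0 3 rfl rfl).1 hnil r hr P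
  refine ⟨(P : Subgroup V₁).map V₁.subtype, P.isPGroup'.map _, ?_, ?_⟩
  · intro hb
    rw [Subgroup.map_eq_bot_iff_of_injective _ (Subgroup.subtype_injective _)] at hb
    have h1 : ¬ r ∣ Nat.card V₁ := by
      have h2 := P.not_dvd_index
      rwa [hb, Subgroup.index_bot] at h2
    apply h1
    have h3 : Nat.card V ∣ Nat.card V₁ := by
      have h4 : V₁.map π = V := Subgroup.map_comap_eq_self_of_surjective (QuotientGroup.mk'_surjective _) V
      have h5 := Subgroup.card_map_dvd V₁ π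
      rwa [h4] at h5
    refine dvd_trans ?_ h3
    have : Nontrivial V := (Subgroup.nontrivial_iff_ne_bot _).2 hV1
    obtain ⟨k, hk0, hk⟩ := (IsPGroup.nontrivial_iff_card hV).1 this
    rw [hk]
    exact dvd_pow_self r hk0.ne'
  · intro x
    constructor
    · rintro ⟨y, hy, rfl⟩
      refine ⟨y.2, ?_⟩
      obtain ⟨k, hk⟩ := P.isPGroup' ⟨y, hy⟩
      refine ⟨k, ?_⟩
      have h1 := congrArg (fun z : (P : Subgroup V₁) => (z : V₁)) hk
      have h2 : y ^ r ^ k = 1 := h1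
      show (y : G) ^ r ^ k = 1
      rw [← Subgroup.coe_pow, h2, Subgroup.coe_one]
    · rintro ⟨hx, k, hk⟩
      set y : V₁ := ⟨x, hx⟩ with hy
      have h1 : IsPGroup r (Subgroup.zpowers y) := by
        refine IsPGroup.of_card_dvd_pow (n := k) ?_
        rw [Nat.card_zpowers]
        apply orderOf_dvd_of_pow_eq_one
        apply Subtype.ext
        exact hk
      obtain ⟨P', hP'⟩ := h1.exists_le_sylow
      have h2 : P' = P := by
        have := Sylow.unique_of_normal P hPn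
        exact Subsingleton.elim _ _
      refine ⟨y, ?_, rfl⟩
      rw [← h2]
      exact hP' (Subgroup.mem_zpowers y)

theorem exists_lift {D : Subgroup G} (hD : IsPGroup p D) (D' : Sylow p (G ⧸ Subgroup.center G))
    (V : Subgroup (G ⧸ Subgroup.center G)) (hV : IsPGroup r V) (hV1 : V ≠ ⊥)
    (hDV : (D' : Subgroup (G ⧸ Subgroup.center G)) ≤ Subgroup.normalizer (V : Set (G ⧸ Subgroup.center G))) :
    ∃ R : Subgroup G, IsPGroup r R ∧ R ≠ ⊥ ∧ D ≤ Subgroup.normalizer (R : Set G) := by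
  set π := QuotientGroup.mk' (Subgroup.center G) with hπ
  -- `D̄` is conjugate into `D'`
  obtain ⟨P, hP⟩ := (hD.map π).exists_le_sylow
  obtain ⟨g, hg⟩ := MulAction.exists_smul_eq (G ⧸ Subgroup.center G) D' P
  obtain ⟨R, h1, h2, h3⟩ := exists_lift_aux (r := r) (V.map (MulAut.conj g).toMonoidHom) (hV.map _)
    (by
      rw [Ne, Subgroup.map_eq_bot_iff_of_injective _ (MulAut.conj g).injective]
      exact hV1)
  refine ⟨R, h1, h2, ?_⟩
  -- elements of `D` normalize the conjugate of `V`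
  have key : ∀ d ∈ D, ∀ x, x ∈ V.map (MulAut.conj g).toMonoidHom →
      π d * x * (π d)⁻¹ ∈ V.map (MulAut.conj g).toMonoidHom := by
    rintro d hd _ ⟨v, hv, rfl⟩
    have h4 : π d ∈ (P : Subgroup _) := hP (Subgroup.mem_map_of_mem π hd)
    rw [← hg] at h4
    obtain ⟨e, he, he'⟩ := h4
    have h5 : g * e * g⁻¹ = π d := he'
    have h6 : e * v * e⁻¹ ∈ V := (Subgroup.mem_normalizer_iff.1 (hDV he) v).1 hv
    refine ⟨e * v * e⁻¹, h6, ?_⟩
    rw [← h5]
    show g * (e * v * e⁻¹) * g⁻¹ = g * e * g⁻¹ * (g * v * g⁻¹) * (g * e * g⁻¹)⁻¹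
    group
  have key2 : ∀ d ∈ D, ∀ x ∈ R, d * x * d⁻¹ ∈ R := by
    intro d hd x hx
    rw [h3] at hx ⊢
    obtain ⟨hx1, k, hk⟩ := hx
    refine ⟨?_, k, ?_⟩
    · have h4 := key d hd _ hx1
      rwa [← map_inv, ← map_mul, ← map_mul] at h4
    · rw [conj_pow, hk, mul_one, mul_inv_cancel]
  intro d hd
  rw [Subgroup.mem_normalizer_iff]
  intro x
  refine ⟨key2 d hd x, fun hx => ?_⟩
  have h4 := key2 d⁻¹ (D.inv_mem hd) _ hx
  have h5 : d⁻¹ * (d * x * d⁻¹) * d⁻¹⁻¹ = x := by group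
  rwa [h5] at h4

end lift

section geom

variable {F : Type*} [Field F] [Finite F] {ι : Type} [Fintype ι] [DecidableEq ι] {Q : QuadraticForm F (ι → F)}
  {r : ℕ} [hr : Fact r.Prime] [CharP F r]

theorem om_Q (hG : Good Q) (g : Cfsg.Omega F ⇑Q) (v : ι → F) : Q (omRho Q g v) = Q v :=
  mem_O.1 (E_le_O (omRho_mem_E hG g)) v

theorem om_polar (hG : Good Q) (g : Cfsg.Omega F ⇑Q) (v w : ι → F) :
    polar Q (omRho Q g v) (omRho Q g w) = polar Q v w :=
  polar_map (E_le_O (omRho_mem_E hG g)) v w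

/-- the fixed space -/
def fixS (R : Subgroup (Cfsg.Omega F ⇑Q)) : Submodule F (ι → F) where
  carrier := {v | ∀ g ∈ R, omRho Q g v = v}
  zero_mem' := fun g _ => map_zero _
  add_mem' := by
    intro a b ha hb g hg
    rw [map_add, ha g hg, hb g hg]
  smul_mem' := by
    intro c a ha g hg
    rw [map_smul, ha g hg]

/-- the commutator space -/
def comS (R : Subgroup (Cfsg.Omega F ⇑Q)) : Submodule F (ι → F) :=
  Submodule.span F {w | ∃ g ∈ R, ∃ v, w = omRho Q g v - v}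

theorem fixS_inv {R : Subgroup (Cfsg.Omega F ⇑Q)} {d : Cfsg.Omega F ⇑Q}
    (hd : d ∈ Subgroup.normalizer (R : Set (Cfsg.Omega F ⇑Q))) {v : ι → F} (hv : v ∈ fixS R) :
    omRho Q d v ∈ fixS R := by
  intro g hg
  have h1 : d⁻¹ * g * d ∈ R := by
    have h2 := (Subgroup.mem_normalizer_iff.1 (Subgroup.inv_mem _ hd) g).1 hg
    rwa [inv_inv] at h2
  have h3 := hv _ h1
  have h4 : g * d = d * (d⁻¹ * g * d) := by group
  rw [← LinearEquiv.mul_apply, ← map_mul, h4, map_mul, LinearEquiv.mul_apply, h3]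

theorem comS_inv {R : Subgroup (Cfsg.Omega F ⇑Q)} {d : Cfsg.Omega F ⇑Q}
    (hd : d ∈ Subgroup.normalizer (R : Set (Cfsg.Omega F ⇑Q))) {v : ι → F} (hv : v ∈ comS R) :
    omRho Q d v ∈ comS R := by
  unfold comS at hv
  induction hv using Submodule.span_induction with
  | mem x hx =>
    obtain ⟨g, hg, v, rfl⟩ := hx
    refine Submodule.subset_span ⟨d * g * d⁻¹, (Subgroup.mem_normalizer_iff.1 hd g).1 hg, omRho Q d v, ?_⟩
    have h4 : d * g * d⁻¹ * d = d * g := by group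
    rw [map_sub, ← LinearEquiv.mul_apply, ← map_mul, ← LinearEquiv.mul_apply, ← map_mul, h4]
  | zero => rw [map_zero]; exact Submodule.zero_mem _
  | add x y _ _ hx hy => rw [map_add]; exact Submodule.add_mem _ hx hy
  | smul a x _ hx => rw [map_smul]; exact Submodule.smul_mem _ _ hx

theorem fix_perp_com (hG : Good Q) {R : Subgroup (Cfsg.Omega F ⇑Q)} {u w : ι → F} (hu : u ∈ fixS R)
    (hw : w ∈ comS R) : polar Q u w = 0 := by
  unfold comS at hw
  induction hw using Submodule.span_induction with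
  | mem x hx =>
    obtain ⟨g, hg, v, rfl⟩ := hx
    have h1 := om_polar hG g u v
    rw [hu g hg] at h1
    rw [sub_eq_add_neg, polar_add_right, polar_neg_right, h1, add_neg_cancel]
  | zero => exact polar_zero_right Q u
  | add x y _ _ hx hy => rw [polar_add_right, hx, hy, add_zero]
  | smul a x _ hx => rw [polar_smul_right, hx, smul_zero]

theorem card_F_dvd : r ∣ Nat.card F := by
  have : Fintype F := Fintype.ofFinite F
  obtain ⟨n, -, hn⟩ := FiniteField.card F r
  rw [Nat.card_eq_fintype_card, hn]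
  exact dvd_pow_self r n.ne_zero

/-- fixed vectors in the commutator space -/
theorem exists_fix_com {R : Subgroup (Cfsg.Omega F ⇑Q)} (hR : IsPGroup r R) (hR1 : R ≠ ⊥) :
    ∃ u : ι → F, u ≠ 0 ∧ u ∈ fixS R ∧ u ∈ comS R := by
  have hW : comS R ≠ ⊥ := by
    intro h0
    apply hR1
    rw [eq_bot_iff]
    intro g hg
    rw [Subgroup.mem_bot]
    apply omRho_injective Q
    ext1 v
    have h1 : omRho Q g v - v ∈ comS R := Submodule.subset_span ⟨g, hg, v, rfl⟩
    rw [h0, Submodule.mem_bot, sub_eq_zero] at h1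
    rw [h1, map_one]
    rfl
  let act : MulAction R (comS R) :=
    { smul := fun g w => ⟨omRho Q g.1 w.1, comS_inv (Subgroup.le_normalizer g.2) w.2⟩
      one_smul := fun w => Subtype.ext (by
        show omRho Q (1 : Cfsg.Omega F ⇑Q) w.1 = w.1
        rw [map_one]; rfl)
      mul_smul := fun g h w => Subtype.ext (by
        show omRho Q (g.1 * h.1) w.1 = omRho Q g.1 (omRho Q h.1 w.1)
        rw [map_mul]; rfl) }
  have hdvd : r ∣ Nat.card (comS R) := by
    rw [Module.natCard_eq_pow_finrank (K := F)]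
    refine card_F_dvd.trans (dvd_pow_self _ ?_)
    rw [Ne, Submodule.finrank_eq_zero]
    exact hW
  have h0 : (0 : comS R) ∈ MulAction.fixedPoints R (comS R) := fun g => Subtype.ext (map_zero _)
  obtain ⟨b, hb, hb0⟩ := hR.exists_fixed_point_of_prime_dvd_card_of_fixed_point (comS R) hdvd h0
  refine ⟨b.1, ?_, ?_, b.2⟩
  · intro h
    exact hb0 (Subtype.ext h.symm)
  · intro g hg
    exact congrArg Subtype.val (hb ⟨g, hg⟩)

theorem exists_inv (hG : Good Q) {R D : Subgroup (Cfsg.Omega F ⇑Q)} (hR : IsPGroup r R) (hR1 : R ≠ ⊥)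
    (hDR : D ≤ Subgroup.normalizer (R : Set (Cfsg.Omega F ⇑Q))) :
    (∃ U : Submodule F (ι → F), U ≠ ⊥ ∧ (∀ g ∈ D, ∀ u ∈ U, omRho Q g u ∈ U) ∧ (quadPol Q).TI U) ∨
      ∃ v : ι → F, v ≠ 0 ∧ ∀ g ∈ D, omRho Q g v = v := by
  obtain ⟨u, hu0, hu1, hu2⟩ := exists_fix_com hR hR1
  -- the subspace of singular vectors of `fixS R ⊓ comS R`
  have hpol : ∀ x ∈ fixS R ⊓ comS R, ∀ y ∈ fixS R ⊓ comS R, polar Q x y = 0 := fun x hx y hy =>
    fix_perp_com hG hx.1 hy.2
  let U : Submodule F (ι → F) :=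
    { carrier := {x | x ∈ fixS R ⊓ comS R ∧ Q x = 0}
      zero_mem' := ⟨Submodule.zero_mem _, QuadraticMap.map_zero Q⟩
      add_mem' := by
        rintro a b ⟨ha, ha'⟩ ⟨hb, hb'⟩
        refine ⟨Submodule.add_mem _ ha hb, ?_⟩
        show Q (a + b) = 0
        rw [QuadraticMap.map_add Q, ha', hb', hpol a ha b hb, add_zero, add_zero]
      smul_mem' := by
        rintro c a ⟨ha, ha'⟩
        refine ⟨Submodule.smul_mem _ _ ha, ?_⟩
        show Q (c • a) = 0
        rw [QuadraticMap.map_smul, ha', smul_zero] }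
  have hUi : ∀ g ∈ D, ∀ u ∈ U, omRho Q g u ∈ U := by
    rintro g hg x ⟨⟨hx1, hx2⟩, hx3⟩
    exact ⟨⟨fixS_inv (hDR hg) hx1, comS_inv (hDR hg) hx2⟩, (om_Q hG g x).trans hx3⟩
  by_cases hU : U = ⊥
  · right
    refine ⟨u, hu0, fun g hg => ?_⟩
    have h1 : omRho Q g u ∈ fixS R ⊓ comS R := ⟨fixS_inv (hDR hg) hu1, comS_inv (hDR hg) hu2⟩
    have h2 : u ∈ fixS R ⊓ comS R := ⟨hu1, hu2⟩
    have h3 : omRho Q g u - u ∈ U := by
      refine ⟨Submodule.sub_mem _ h1 h2, ?_⟩
      show Q (omRho Q g u - u) = 0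
      have h4 := hpol _ h1 _ h2
      have h5 := hpol _ h2 _ h2
      rw [sub_eq_add_neg, QuadraticMap.map_add Q, polar_neg_right, h4, neg_zero, add_zero, QuadraticMap.map_neg,
        om_Q hG]
      rw [polar_self] at h5
      rw [← h5, two_nsmul]
    rw [hU, Submodule.mem_bot, sub_eq_zero] at h3
    exact h3
  · left
    exact ⟨U, hU, hUi, fun x hx => hx.2, fun x hx y hy => hpol x hx.1 y hy.1⟩

/-- **No Sylow `p`-subgroup of `POmega F Q` normalizes a nontrivial `r`-subgroup.** -/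
theorem noD (hG : Good Q) {p : ℕ} [hp : Fact p.Prime] {D : Subgroup (Cfsg.Omega F ⇑Q)} (hD : IsPGroup p D)
    (hD1 : ∀ U : Submodule F (ι → F), (∀ g ∈ D, ∀ u ∈ U, omRho Q g u ∈ U) → (quadPol Q).TI U → U = ⊥)
    (hD2 : ∀ v : ι → F, (∀ g ∈ D, omRho Q g v = v) → v = 0)
    (D' : Sylow p (Cfsg.POmega F ⇑Q)) (V : Subgroup (Cfsg.POmega F ⇑Q)) (hV : IsPGroup r V) (hV1 : V ≠ ⊥) :
    ¬ (D' : Subgroup (Cfsg.POmega F ⇑Q)) ≤ Subgroup.normalizer (V : Set (Cfsg.POmega F ⇑Q)) := by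
  intro hle
  obtain ⟨R, h1, h2, h3⟩ := exists_lift (r := r) hD D' V hV hV1 hle
  rcases exists_inv hG h1 h2 h3 with ⟨U, hU, hUi, hUT⟩ | ⟨v, hv, hvi⟩
  · exact hU (hD1 U hUi hUT)
  · exact hv (hD2 v hvi)

end geom

end Cfsg.Agent.H674.BD.NoD
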