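import Mathlib.FieldTheory.Finite.Extension
import Mathlib.RingTheory.Norm.Transitivity
import Mathlib.LinearAlgebra.Matrix.SpecialLinearGroup
import Mathlib.LinearAlgebra.FreeModule.Finite.Basic
import Mathlib.Algebra.Field.ULift

/-!
# Restriction of scalars `SL_w(K) → SL_{wD}(F)` (helper674)

* `restr b` : for a basis `b` of `w → K` over `F`, the injective homomorphism `SL_w(K) → SL_n(F)`;
* `exists_restr` : for `0 < D` there is a field `K` with `|K| = |F| ^ D` and an injective homomorphism
  `SL (Fin w) K →* SL (Fin (w * D)) F`.
-/

set_option autoImplicit false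

namespace Cfsg.Agent.H674.BD.Restr

open Matrix

variable {F K : Type*} [Field F] [Field K] [Algebra F K] {w n : Type*} [Fintype w] [DecidableEq w] [Fintype n]
  [DecidableEq n]

/-- restriction of scalars -/
noncomputable def restr (b : Module.Basis n F (w → K)) : SpecialLinearGroup w K →* SpecialLinearGroup n F where
  toFun A := ⟨LinearMap.toMatrix b b ((Matrix.toLin' A.1).restrictScalars F), by
    rw [LinearMap.det_toMatrix, LinearMap.det_restrictScalars, LinearMap.det_toLin', A.2, map_one]⟩
  map_one' := by
    apply Subtype.ext
    show LinearMap.toMatrix b b ((Matrix.toLin' (1 : Matrix w w K)).restrictScalars F) = 1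
    rw [Matrix.toLin'_one]
    exact LinearMap.toMatrix_id b
  map_mul' A B := by
    apply Subtype.ext
    show LinearMap.toMatrix b b ((Matrix.toLin' (A.1 * B.1)).restrictScalars F) =
      LinearMap.toMatrix b b ((Matrix.toLin' A.1).restrictScalars F) *
        LinearMap.toMatrix b b ((Matrix.toLin' B.1).restrictScalars F)
    rw [Matrix.toLin'_mul, ← LinearMap.toMatrix_comp b b b]
    rfl

/-- the matrix of `restr b A` acts as `A` in the coordinates `b` -/
theorem restr_mulVec (b : Module.Basis n F (w → K)) (A : SpecialLinearGroup w K) (v : w → K) :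
    (restr b A).1.mulVec (b.repr v) = b.repr (A.1.mulVec v) := by
  have h := LinearMap.toMatrix_mulVec_repr b b ((Matrix.toLin' A.1).restrictScalars F) v
  exact h

theorem restr_injective (b : Module.Basis n F (w → K)) : Function.Injective (restr b) := by
  intro A B h
  have h1 : LinearMap.toMatrix b b ((Matrix.toLin' A.1).restrictScalars F) =
      LinearMap.toMatrix b b ((Matrix.toLin' B.1).restrictScalars F) := congrArg Subtype.val h
  have h2 := (LinearMap.toMatrix b b).injective h1
  apply Subtype.ext
  apply Matrix.toLin'.injective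
  exact LinearMap.restrictScalars_injective F h2

omit [DecidableEq w] in
/-- the restriction of scalars for `w → K` and a number `m = |w| [K : F]` -/
theorem exists_basis [FiniteDimensional F K] {m D : ℕ} (hD : Module.finrank F K = D)
    (hm : Fintype.card w * D = m) : Nonempty (Module.Basis (Fin m) F (w → K)) := by
  have h1 : Module.finrank F (w → K) = m := by
    rw [← hm, ← hD, Module.finrank_pi_fintype]
    simp
  exact ⟨Module.finBasisOfFinrankEq F (w → K) h1⟩

section Ext

universe u

variable (F' : Type u) [Field F'] [Finite F']

/-- **Restriction of scalars**: `SL_v(F_{q^D}) ≤ SL_{vD}(F_q)`. -/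
theorem exists_restr {v D m : ℕ} (hD : 0 < D) (hm : v * D = m) :
    ∃ (L : Type u) (_ : Field L) (_ : Finite L), Nat.card L = Nat.card F' ^ D ∧
      ∃ f : SpecialLinearGroup (Fin v) L →* SpecialLinearGroup (Fin m) F', Function.Injective f := by
  have : NeZero D := ⟨hD.ne'⟩
  obtain ⟨p, hp⟩ := CharP.exists F'
  have := hp
  have : Fact p.Prime := ⟨(CharP.char_is_prime_or_zero F' p).resolve_right (CharP.char_ne_zero_of_finite F' p)⟩
  refine ⟨ULift.{u} (FiniteField.Extension F' p D), inferInstance, inferInstance, ?_, ?_⟩
  · rw [Nat.card_ulift, FiniteField.natCard_extension F' p D]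
  · obtain ⟨b⟩ := exists_basis (F := F') (K := ULift.{u} (FiniteField.Extension F' p D)) (w := Fin v) (m := m) (D := D)
      ((LinearEquiv.finrank_eq (ULift.moduleEquiv (R := F') (M := FiniteField.Extension F' p D))).trans
        (FiniteField.finrank_extension F' p D)) (by rw [Fintype.card_fin, hm])
    exact ⟨restr b, restr_injective b⟩

end Ext

end Cfsg.Agent.H674.BD.Restr
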