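import Cfsg.Agent.H116.RatB0.StRow
import Cfsg.Agent.KFacts.RgdFilt
import Cfsg.Agent.Nodes.HasRGD

/-!
# The Steinberg character in the principal `p`-block: the criterion with `r`-subgroups (helper674)

* `exists_st_of_noD` : `S` finite with a root group datum of characteristic `r`, `p ≠ r`, no Sylow `p`-subgroup of `S`
  normalizes a nontrivial `r`-subgroup; then a character of degree `|S|_r` (Steinberg) lies in the principal `p`-block.
-/

set_option autoImplicit false
set_option linter.unusedSectionVars false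

namespace Cfsg.Agent.H674.BD.StD

open Cfsg CoxeterSystem Cfsg.Agent.ChevalleyStructure.CoxeterGeom Cfsg.Agent.Tits.Roots Cfsg.Agent.Tits.Core
  Cfsg.Agent.Tits.Exchange Cfsg.Agent.Nodes.Reps Cfsg.Agent.Nodes.BNOf Cfsg.Agent.Nodes.StabComb
  Cfsg.Agent.Nodes.Bruhat Cfsg.Agent.Nodes.OppDec Cfsg.Agent.Nodes.LeviDec Cfsg.Agent.Nodes.NormalForm
  Cfsg.Agent.KFacts.RgdOpp Cfsg.Agent.KFacts.RgdAut Cfsg.Agent.KFacts.RgdDiag Cfsg.Agent.H554.RG

universe u

variable {I W : Type*} {S : Type u} [Fintype I] [DecidableEq I] [Group W] [Group S] {M : CoxeterMatrix I}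
  {cs : CoxeterSystem M W} {A : I → I → ℤ} {h : IsCartan M A} {r : ℕ} {T : Subgroup S} {n : I → S}
  {X : (I → ℤ) → Subgroup S} (R : RGD cs h r T n X)

include R in
/-- the criterion for a root group datum -/
theorem exists_st_rgd [Finite W] [Finite S] [hr : Fact r.Prime] (hG : GG cs h T X = ⊤) {p : ℕ} [hp : Fact p.Prime]
    (hpr : p ≠ r) {M : Ideal AlgInt} (hM : IsPModular p M)
    (hD : ∀ (D : Sylow p S) (V : Subgroup S), IsPGroup r V → V ≠ ⊥ →
      ¬ (D : Subgroup S) ≤ Subgroup.normalizer (V : Set S)) :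
    ∃ χ : IrrCharacter S, χ ∈ principalBlock M S ∧ charDegree (χ : S → ℂ) = ordProj[r] (Nat.card S) := by
  obtain ⟨Q, hQ⟩ := exists_sylow R hG
  have key : ∀ J : Finset I, J ≠ Finset.univ → p ∣ (PJ cs h T X (J : Set I)).index := by
    intro J hJ
    by_contra hpi
    obtain ⟨j, hj⟩ : ∃ j, j ∉ J := by
      by_contra hcon
      push Not at hcon
      exact hJ (Finset.eq_univ_iff_forall.2 hcon)
    -- a Sylow `p`-subgroup of `P_J` is a Sylow `p`-subgroup of `S`
    obtain ⟨D⟩ : Nonempty (Sylow p ↥(PJ cs h T X (J : Set I))) := inferInstance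
    obtain ⟨D', hD'⟩ : ∃ D' : Sylow p S, (D' : Subgroup S) = (D : Subgroup _).map (PJ cs h T X (J : Set I)).subtype := by
      have hcard : Nat.card ((D : Subgroup _).map (PJ cs h T X (J : Set I)).subtype) =
          p ^ (Nat.card S).factorization p := by
        rw [Subgroup.card_map_of_injective (Subgroup.subtype_injective _), D.card_eq_multiplicity]
        congr 1
        have h5 := Subgroup.card_mul_index (PJ cs h T X (J : Set I))
        rw [← h5, Nat.factorization_mul Nat.card_pos.ne' Subgroup.index_ne_zero_of_finite, Finsupp.add_apply,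
          Nat.factorization_eq_zero_of_not_dvd hpi, add_zero]
      exact ⟨Sylow.ofCard _ hcard, rfl⟩
    have hle : (D' : Subgroup S) ≤ Subgroup.normalizer (VJ cs h X (J : Set I) : Set S) := by
      rw [hD']
      exact (Subgroup.map_subtype_le _).trans (PJ_le_normalizer_VJ R _)
    refine hD D' (VJ cs h X (J : Set I)) ?_ ?_ hle
    · have h6 : VJ cs h X (J : Set I) ≤ (Q : Subgroup S) := by
        rw [hQ]
        exact VJ_le_U _
      exact Q.isPGroup'.to_le h6
    · intro hb
      obtain ⟨u, hu, hu1⟩ := exists_ne_one R j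
      apply hu1
      have h3 : u ∈ VJ cs h X (J : Set I) := RGD.le_Sup (S := NotJ cs h (J : Set I)) (sr_mem_NotJ (by simpa using hj)) hu
      rw [hb] at h3
      simpa using h3
  obtain ⟨χ, h1, -, h3, -⟩ := H116.RatB0.exists_st R hG hpr hM (fun J hJ => Or.inl (key J hJ))
  refine ⟨χ, h1, ?_⟩
  rw [h3, ← hQ, Q.card_eq_multiplicity]

/-- **The Steinberg character, the criterion with `r`-subgroups.** -/
theorem exists_st_of_noD {S : Type u} [Group S] [Finite S] {r : ℕ} [hr : Fact r.Prime]
    (hR : Nodes.RGDChev.HasRGD r S) {p : ℕ} [hp : Fact p.Prime] (hpr : p ≠ r) {M : Ideal AlgInt} (hM : IsPModular p M)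
    (hD : ∀ (D : Sylow p S) (V : Subgroup S), IsPGroup r V → V ≠ ⊥ →
      ¬ (D : Subgroup S) ≤ Subgroup.normalizer (V : Set S)) :
    ∃ χ : IrrCharacter S, χ ∈ principalBlock M S ∧ charDegree (χ : S → ℂ) = ordProj[r] (Nat.card S) := by
  obtain ⟨l, M', A, h, T, n, X, hW, R, hX⟩ := hR
  exact exists_st_rgd R (KFacts.RgdFilt.GG_eq_top hX) hpr hM hD

end Cfsg.Agent.H674.BD.StD
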