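import Cfsg.Agent.H116.RatB0.StRow
import Cfsg.Agent.Nodes.RGDTypeA
import Cfsg.Agent.H105.Og.Arith
import Mathlib.LinearAlgebra.Matrix.GeneralLinearGroup.Card

/-!
# The Steinberg character of `SL_n(F)` in the principal `p`-block for odd `p ∣ |F| - 1` (helper674)

* `centralizer_le` : the centralizer of the group `Q p` of diagonal matrices of order dividing `p` is the diagonal torus;
* `exists_st` : a character in the principal `p`-block of `SL_w(F)` of degree at least `|F| ^ (w (w - 1) / 2)`.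
-/

set_option autoImplicit false

namespace Cfsg.Agent.H674.BD.StSL

open Cfsg Matrix CoxeterSystem Cfsg.Agent.ChevalleyStructure.CoxeterGeom Cfsg.Agent.Tits.Roots
  Cfsg.Agent.Nodes.Reps Cfsg.Agent.Nodes.BNOf Cfsg.Agent.Nodes.OppDec Cfsg.Agent.Nodes.StabComb
  Cfsg.Agent.Nodes.LeviDec Cfsg.Agent.Nodes.NormalForm Cfsg.Agent.KFacts.RgdAut Cfsg.Agent.KFacts.RgdDiag Cfsg.Agent.H554.RG
  Cfsg.Agent.Nodes.Bruhat Cfsg.Agent.Nodes.RGDTypeA Cfsg.Agent.KFacts.RgdOpp Cfsg.Agent.Nodes.RGDLib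

universe u

section Torus

variable {ι F : Type*} [Field F] [DecidableEq ι] [Fintype ι]

theorem T_comm {g k : SpecialLinearGroup ι F} (hg : g ∈ T ι F) (hk : k ∈ T ι F) : g * k = k * g := by
  have key : ∀ {a b : ι} {g k : SpecialLinearGroup ι F}, g ∈ T ι F → k ∈ T ι F →
      (g * k).1 a b = g.1 a a * k.1 a b := by
    intro a b g k hg hk
    show (g.1 * k.1) a b = _
    rw [Matrix.mul_apply, Finset.sum_eq_single a]
    · intro c _ hc
      have h1 : g.1 a c = 0 := by
        by_contra h0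
        exact hc (mem_T.1 hg a c h0).symm
      rw [h1, zero_mul]
    · intro h0
      exact absurd (Finset.mem_univ _) h0
  apply Subtype.ext
  ext a b
  rw [key hg hk, key hk hg]
  by_cases hab : a = b
  · subst hab
    rw [mul_comm]
  · have h1 : g.1 a b = 0 := by
      by_contra h0
      exact hab (mem_T.1 hg a b h0)
    have h2 : k.1 a b = 0 := by
      by_contra h0
      exact hab (mem_T.1 hk a b h0)
    rw [h1, h2, mul_zero, mul_zero]

/-- the diagonal matrices of order dividing `p` -/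
def Q (ι F : Type*) [Field F] [DecidableEq ι] [Fintype ι] (p : ℕ) : Subgroup (SpecialLinearGroup ι F) where
  carrier := {g | g ∈ T ι F ∧ g ^ p = 1}
  one_mem' := ⟨one_mem _, one_pow _⟩
  mul_mem' := by
    rintro g k ⟨hg, hg'⟩ ⟨hk, hk'⟩
    refine ⟨mul_mem hg hk, ?_⟩
    have h : Commute g k := T_comm hg hk
    rw [h.mul_pow, hg', hk', one_mul]
  inv_mem' := by
    rintro g ⟨hg, hg'⟩
    exact ⟨inv_mem hg, by rw [inv_pow, hg', inv_one]⟩

theorem Q_le (p : ℕ) : Q ι F p ≤ T ι F := fun _ h => h.1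

theorem isPGroup_Q (p : ℕ) : IsPGroup p (Q ι F p) := by
  rintro ⟨g, hg⟩
  exact ⟨1, Subtype.ext (by rw [pow_one]; exact hg.2)⟩

theorem diag2n_mem_Q {a b : ι} (hab : a ≠ b) {t : F} (ht : t ≠ 0) {p : ℕ} (hp : t ^ p = 1) :
    SpecialLinearGroup.diag2n hab t ht ∈ Q ι F p := by
  refine ⟨diag_mem_T hab ht, ?_⟩
  have h1 : (SpecialLinearGroup.diag2n hab t ht ^ p).1 = (SpecialLinearGroup.diag2n hab t ht).1 ^ p :=
    Matrix.SpecialLinearGroup.coe_pow _ _
  have h2 : (SpecialLinearGroup.diag2n hab t ht).1 ^ p = (1 : Matrix ι ι F) := by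
    rw [SpecialLinearGroup.diag2n_coe, Matrix.diagonal_pow, ← Matrix.diagonal_one]
    congr 1
    funext k
    simp only [Pi.pow_apply]
    split_ifs
    · exact hp
    · rw [inv_pow, hp, inv_one]
    · exact one_pow _
  exact Subtype.ext (h1.trans h2)

/-- **The centralizer of `Q`.** -/
theorem centralizer_le {p : ℕ} {z : F} (hz0 : z ≠ 0) (hz : z ^ p = 1) (hz2 : z ^ 2 ≠ 1) :
    Subgroup.centralizer (Q ι F p : Set (SpecialLinearGroup ι F)) ≤ T ι F := by
  intro g hg
  rw [mem_T]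
  intro a b h0
  show a = b
  by_contra hab
  have h1 := Subgroup.mem_centralizer_iff.1 hg _ (diag2n_mem_Q hab hz0 hz)
  have h2 : ((SpecialLinearGroup.diag2n hab z hz0).1 * g.1) a b = (g.1 * (SpecialLinearGroup.diag2n hab z hz0).1) a b :=
    congrArg (fun x : SpecialLinearGroup ι F => x.1 a b) h1
  rw [SpecialLinearGroup.diag2n_coe, Matrix.diagonal_mul, Matrix.mul_diagonal, if_pos rfl,
    if_neg (Ne.symm hab), if_pos rfl] at h2
  rw [mul_comm] at h2
  have h3 := mul_left_cancel₀ h0 h2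
  apply hz2
  rw [pow_two]
  nth_rewrite 1 [h3]
  exact inv_mul_cancel₀ hz0

end Torus

section Card

variable {F : Type u} [Field F] [Finite F]

/-- the `r`-part of the order -/
theorem pow_dvd_card {n : ℕ} (hn : 1 ≤ n) : Nat.card F ^ (n * (n - 1) / 2) ∣ Nat.card (SpecialLinearGroup (Fin n) F) := by
  classical
  have : Fintype F := Fintype.ofFinite F
  have h1 := H105.Og.card_gl_sl (F := F) hn
  have h2 : Nat.card (GL (Fin n) F) = ∏ i : Fin n, (Fintype.card F ^ n - Fintype.card F ^ (i : ℕ)) := by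
    rw [Matrix.card_GL_field]
  have h3 : (∏ i ∈ Finset.range n, Fintype.card F ^ i) = Fintype.card F ^ (n * (n - 1) / 2) := by
    rw [Finset.prod_pow_eq_pow_sum, Finset.sum_range_id]
  have h4 : (∏ i ∈ Finset.range n, Fintype.card F ^ i) ∣ Nat.card (GL (Fin n) F) := by
    rw [h2, Fin.prod_univ_eq_prod_range (fun i => Fintype.card F ^ n - Fintype.card F ^ i) n]
    refine Finset.prod_dvd_prod_of_dvd _ _ fun i hi => ?_
    exact Nat.dvd_sub (pow_dvd_pow _ (Finset.mem_range.1 hi).le) dvd_rfl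
  rw [h3, h1] at h4
  rw [Nat.card_eq_fintype_card] at h4 ⊢
  refine (Nat.Coprime.pow_left _ ?_).dvd_of_dvd_mul_left h4
  have h5 : 1 < Fintype.card F := Fintype.one_lt_card
  have h6 : Nat.Coprime (Fintype.card F - 1 + 1) (Fintype.card F - 1) := by
    simp
  rwa [Nat.sub_add_cancel h5.le] at h6

end Card

section Main

variable {F : Type u} [Field F] [Finite F]

/-- **The Steinberg character of `SL_w(F)`, `p ∣ |F| - 1`.** -/
theorem exists_st {p : ℕ} [hp : Fact p.Prime] (hp2 : p ≠ 2) (hpq : p ∣ Nat.card F - 1) {w : ℕ} (hw : 1 ≤ w)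
    {M : Ideal AlgInt} (hM : IsPModular p M) :
    ∃ χ : IrrCharacter (SpecialLinearGroup (Fin w) F), χ ∈ principalBlock M (SpecialLinearGroup (Fin w) F) ∧
      Nat.card F ^ (w * (w - 1) / 2) ≤ charDegree (χ : SpecialLinearGroup (Fin w) F → ℂ) := by
  classical
  obtain ⟨n, rfl⟩ : ∃ k, w = k + 1 := ⟨w - 1, by omega⟩
  obtain ⟨r, hr⟩ := CharP.exists F
  have : Fact r.Prime := ⟨CharP.char_is_prime F r⟩
  have : Finite (Cfsg.Agent.LieRecognition.BNCox.cA n).Group :=
    Cfsg.Agent.Nodes.RootsA.finite_W (Cfsg.Agent.LieRecognition.BNCox.cA n).toCoxeterSystem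
      (Cfsg.Agent.Nodes.RootsA.isCartan n)
  let cs := (Cfsg.Agent.LieRecognition.BNCox.cA n).toCoxeterSystem
  let h := Cfsg.Agent.Nodes.RootsA.isCartan n
  have R : RGD cs h r (T (Fin (n + 1)) F) (ns n F) (X F) := rgd cs h
  have hG : GG cs h (T (Fin (n + 1)) F) (X F) = ⊤ := by
    rw [eq_top_iff, ← G1_eq_top cs h]
    exact le_sup_right
  have hF : 1 < Nat.card F := Finite.one_lt_card
  have hpr : p ≠ r := by
    rintro rfl
    have : Fintype F := Fintype.ofFinite F
    have h1 : p ∣ Nat.card F := by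
      rw [Nat.card_eq_fintype_card]
      obtain ⟨k, -, hk⟩ := FiniteField.card F p
      rw [hk]
      exact dvd_pow_self p k.pos.ne'
    have h2 := (Nat.dvd_sub_iff_right hF.le h1).1 hpq
    exact hp.out.one_lt.ne' (Nat.dvd_one.1 h2)
  obtain ⟨ζ, hζ⟩ : ∃ z : Fˣ, orderOf z = p := by
    have : Fintype Fˣ := Fintype.ofFinite _
    refine exists_prime_orderOf_dvd_card p ?_
    rw [← Nat.card_eq_fintype_card, Nat.card_units]
    exact hpq
  have hC : Subgroup.centralizer (Q (Fin (n + 1)) F p : Set (SpecialLinearGroup (Fin (n + 1)) F)) ≤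
      T (Fin (n + 1)) F := by
    refine centralizer_le (z := (ζ : F)) ζ.ne_zero ?_ ?_
    · rw [← Units.val_pow_eq_pow_val, ← hζ, pow_orderOf_eq_one, Units.val_one]
    · intro h2
      rw [← Units.val_pow_eq_pow_val, ← Units.val_one, Units.val_inj] at h2
      have h3 := orderOf_dvd_of_pow_eq_one h2
      rw [hζ] at h3
      exact hp2 ((Nat.prime_dvd_prime_iff_eq hp.out Nat.prime_two).1 h3)
  obtain ⟨χ, h1, -, h2, -⟩ := H116.RatB0.exists_st R hG hpr hM (fun J _ => Or.inr
    (H116.RatB0.reg_modEq_of_le (isPGroup_Q p) ((Q_le p).trans (RGD.T_le_B.trans B_le_PJ))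
      (hC.trans (RGD.T_le_B.trans B_le_PJ))))
  refine ⟨χ, h1, ?_⟩
  rw [h2]
  obtain ⟨P, hP⟩ := H554.RG.exists_sylow R hG
  rw [← hP]
  have h3 := pow_dvd_card (F := F) (Nat.succ_pos n)
  have : Fintype F := Fintype.ofFinite F
  obtain ⟨k, -, hk⟩ := FiniteField.card F r
  have h4 : Nat.card F ^ ((n + 1) * (n + 1 - 1) / 2) = r ^ (k * ((n + 1) * (n + 1 - 1) / 2)) := by
    rw [Nat.card_eq_fintype_card, hk, pow_mul]
  rw [h4] at h3 ⊢
  exact Nat.le_of_dvd Nat.card_pos (Sylow.pow_dvd_card_of_pow_dvd_card P h3)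

end Main

end Cfsg.Agent.H674.BD.StSL
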